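import Cfsg.Agent.H350.Tri.Defs
import Cfsg.Agent.H469.Exc.Unip
import Cfsg.Agent.BpExc.NpFin
import Mathlib

/-!
# S2187, row TRI, TRI-8 (helper71)

* `mem_MM` : in a tower, an `r`-element commuting with a toral element `t`, `χ_a(t) ^ l = 1` for all roots `a`, `l ≠ r`,
  is in the group `MM t`;
* `mem_MMt` : the case of type `D₄`.
-/

set_option autoImplicit false
set_option linter.unusedSectionVars false

namespace Cfsg.Agent.H71.Tri

section Tower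

open CoxeterSystem Cfsg.Agent.ChevalleyStructure.CoxeterGeom Cfsg.Agent.Tits.Roots Cfsg.Agent.Tits.Core
  Cfsg.Agent.Tits.RootComb Cfsg.Agent.Tits.Exchange Cfsg.Agent.Nodes.Reps Cfsg.Agent.Nodes.BNOf
  Cfsg.Agent.Nodes.StabComb Cfsg.Agent.Nodes.Bruhat Cfsg.Agent.Nodes.OppDec Cfsg.Agent.Nodes.LeviDec
  Cfsg.Agent.Nodes.NormalForm Cfsg.Agent.Nodes.SubComb Cfsg.Agent.Nodes.Coroot Cfsg.Agent.KFacts.RgdField
  Cfsg.Agent.BpExc.TorCent Cfsg.Agent.BpExc.Tow Cfsg.Agent.BpExc.Fr Cfsg.Agent.BpExc.Pair Cfsg.Agent.BpExc.Good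
open Cfsg
open scoped commutatorElement Pointwise

universe u

variable {I W : Type*} {Y : Type u} [Fintype I] [DecidableEq I] [Group W] [Group Y] {M : CoxeterMatrix I}
  {cs : CoxeterSystem M W} {A : I → I → ℤ} {h : IsCartan M A} {r : ℕ}
  {J : Type*} [Preorder J] {T : J → Subgroup Y} {n : I → Y} {X : J → (I → ℤ) → Subgroup Y}
  (H : Tow cs h r T n X) {F : Type*} [Field F] {xx : (I → ℤ) → F → Y} {χ : (I → ℤ) → Y → F}
  (C : Coords cs h (TL T) n (XL X) xx χ)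

include H C

/-- the form of the elements of the centraliser, with a representative of an element of `PP` -/
theorem exists_form_PP [Finite W] (hA : ChAdd cs h (TL T) χ) (hG : GG cs h (TL T) (XL X) = ⊤) {t : Y}
    (ht : t ∈ TL T) {c : Y} (hc : c * t = t * c) :
    ∃ w ∈ PP cs h χ t, ∃ k, Rp cs H.nsys w k ∧ k * t = t * k ∧ k⁻¹ * c ∈ MM cs h (XL X) χ t := by
  obtain ⟨m, hm, w, k, hk, hkt, rfl⟩ := Cfsg.Agent.BpExc.Fr.exists_form H C ht ht (c := c) (by rw [hG]; exact Subgroup.mem_top _) hc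
  let V : Subgroup W :=
    { carrier := {v | ∃ m ∈ MM cs h (XL X) χ t, Rp cs H.nsys v m}
      one_mem' := ⟨1, one_mem _, rp_one⟩
      mul_mem' := by
        rintro a b ⟨m, hm, hm'⟩ ⟨m', hm1, hm2⟩
        exact ⟨m * m', mul_mem hm hm1, hm'.mul hm2⟩
      inv_mem' := by
        rintro a ⟨m, hm, hm'⟩
        exact ⟨m⁻¹, inv_mem hm, hm'.inv⟩ }
  obtain ⟨v, ⟨m₁, hm₁, hv⟩, hpos⟩ := Cfsg.Agent.BpExc.TorCent.exists_adjust (cs := cs) (h := h) (Sx cs h χ t) V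
    (fun a ha => exists_rfl_MM H C hA ht ha) w
  have hm₁t : m₁ * t = t * m₁ := by
    have := MM_le_centralizer C ht hm₁
    rw [Subgroup.mem_centralizer_singleton_iff] at this
    exact this
  have hkm : Rp cs H.nsys (w * v) (k * m₁) := hk.mul hv
  have hkmt : k * m₁ * t = t * (k * m₁) := by
    rw [mul_assoc, hm₁t, ← mul_assoc, hkt, mul_assoc]
  refine ⟨w * v, ⟨fun a ha => ?_, hpos⟩, k * m₁, hkm, hkmt, ?_⟩
  · have h1 := C.chi_rp H.nsys hkm ha ht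
    have h2 : k * m₁ * t * (k * m₁)⁻¹ = t := by rw [hkmt]; group
    rwa [h2] at h1
  · have h1 := cj_MM_rp H C ht hk hkt
    have h2 : (k * m₁)⁻¹ * (m * k) = m₁⁻¹ * (k⁻¹ * m * k) := by group
    rw [h2]
    refine mul_mem (inv_mem hm₁) ?_
    have h3 : m ∈ cj k (MM cs h (XL X) χ t) := by rw [h1]; exact hm
    exact mem_cj.1 h3

/-- **Modulo `MM t · T` the centraliser is an `l`-group.** -/
theorem exists_pow_mem [Finite W] (hA : ChAdd cs h (TL T) χ) (hG : GG cs h (TL T) (XL X) = ⊤) {t : Y}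
    (ht : t ∈ TL T) {l : ℕ} (hl : l.Prime) (hxl : ∀ a, IsRoot cs h a → χ a t ^ l = 1) {c : Y}
    (hc : c * t = t * c) : ∃ m : ℕ, c ^ l ^ m ∈ MM cs h (XL X) χ t ⊔ TL T := by
  obtain ⟨w, hw, k, hk, hkt, hm⟩ := exists_form_PP H C hA hG ht hc
  obtain ⟨m, hm1⟩ := isPGroup_PP hA ht hl hxl ⟨w, hw⟩
  have hw1 : w ^ l ^ m = 1 := congrArg Subtype.val hm1
  have hkn : k ∈ Subgroup.normalizer ((MM cs h (XL X) χ t ⊔ TL T : Subgroup Y) : Set Y) :=
    mem_normalizer_iff_cj.2 (by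
      rw [cj_sup, cj_MM_rp H C ht hk hkt]
      congr 1
      exact mem_normalizer_iff_cj.1 hk.mem_normalizer)
  -- `c ^ j ∈ k ^ j (MM T)`, and `k ^ j` represents `w ^ j`
  have h1 : ∀ j : ℕ, (k ^ j)⁻¹ * c ^ j ∈ MM cs h (XL X) χ t ⊔ TL T := by
    intro j
    induction j with
    | zero => rw [pow_zero, pow_zero, inv_one, one_mul]; exact one_mem _
    | succ j ih =>
      have h2 : (k ^ (j + 1))⁻¹ * c ^ (j + 1) = k⁻¹ * ((k ^ j)⁻¹ * c ^ j) * k * (k⁻¹ * c) := by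
        rw [pow_succ, pow_succ]; group
      rw [h2]
      refine mul_mem ?_ (Subgroup.mem_sup_left hm)
      have h3 := (Subgroup.mem_normalizer_iff.1 (inv_mem hkn) ((k ^ j)⁻¹ * c ^ j)).1 ih
      rwa [inv_inv] at h3
  have h2 : ∀ j : ℕ, Rp cs H.nsys (w ^ j) (k ^ j) := by
    intro j
    induction j with
    | zero => rw [pow_zero, pow_zero]; exact rp_one
    | succ j ih => rw [pow_succ, pow_succ]; exact ih.mul hk
  refine ⟨m, ?_⟩
  have h3 := h2 (l ^ m)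
  rw [hw1] at h3
  have h4 : c ^ l ^ m = k ^ l ^ m * ((k ^ l ^ m)⁻¹ * c ^ l ^ m) := by group
  rw [h4]
  exact mul_mem (Subgroup.mem_sup_right h3.mem_of_one) (h1 _)

omit H C in
/-- an element of order `r ^ j` is a power of its `i`-th power, `i` prime to `r` -/
theorem exists_zpow_eq {u : Y} {j i : ℕ} (hr : r.Prime) (hu : u ^ r ^ j = 1) (hi : i.Coprime r) :
    ∃ m : ℕ, u = (u ^ i) ^ m := by
  have h2 : orderOf u ∣ r ^ j := orderOf_dvd_of_pow_eq_one hu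
  have h3 : i.Coprime (orderOf u) := (Nat.Coprime.pow_right j hi).coprime_dvd_right h2
  have h0 : 0 < orderOf u := Nat.pos_of_dvd_of_pos h2 (pow_pos hr.pos _)
  by_cases h7 : orderOf u = 1
  · rw [orderOf_eq_one_iff] at h7
    exact ⟨0, by rw [h7, pow_zero]⟩
  obtain ⟨m, -, hm⟩ := Nat.exists_mul_mod_eq_one_of_coprime h3 (by omega)
  exact ⟨m, by rw [← pow_mul, ← pow_mod_orderOf, hm, pow_one]⟩

/-- **The `r`-elements of the centraliser of a toral element.** -/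
theorem mem_MM [Finite W] [hr : Fact r.Prime] (hA : ChAdd cs h (TL T) χ) (hG : GG cs h (TL T) (XL X) = ⊤)
    (hTc : ∀ s ∈ TL T, ∀ t ∈ TL T, s * t = t * s) {t : Y}
    (ht : t ∈ TL T) {l : ℕ} (hl : l.Prime) (hlr : l ≠ r) (hxl : ∀ a, IsRoot cs h a → χ a t ^ l = 1) {u : Y}
    (hu : u * t = t * u) (hur : ∃ j, u ^ r ^ j = 1) : u ∈ MM cs h (XL X) χ t := by
  obtain ⟨j, hj⟩ := hur
  have hr' : r.Prime := hr.out
  have hu1 : u ∈ MM cs h (XL X) χ t ⊔ TL T := by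
    obtain ⟨m, hm⟩ := exists_pow_mem H C hA hG ht hl hxl hu
    obtain ⟨i, hi⟩ := exists_zpow_eq hr' hj (i := l ^ m)
      (Nat.Coprime.pow_left m ((Nat.coprime_primes hl hr').2 hlr))
    rw [hi]
    exact pow_mem hm i
  -- the torus normalises `MM t`
  have hn : ∀ s ∈ TL T, s ∈ Subgroup.normalizer (MM cs h (XL X) χ t : Set Y) := fun s hs =>
    (normalizer_MM H C hG ht (hTc s hs t ht)).1
  have hu2 : u ∈ ((MM cs h (XL X) χ t : Set Y) * (TL T : Set Y)) := by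
    rw [← Subgroup.coe_mul_of_right_le_normalizer_left _ _ hn]
    exact hu1
  obtain ⟨a, ha, s, hs, has⟩ := Set.mem_mul.1 hu2
  -- the order of `s` is prime to `r`
  obtain ⟨e, he, hse⟩ : ∃ e : ℕ, e.Coprime r ∧ s ^ e = 1 := by
    obtain ⟨i, hi⟩ := H.mem_TL.1 hs
    have h1 := (H.rgd i).tcop
    refine ⟨Nat.card ↥(T i), h1, ?_⟩
    have h2 : (⟨s, hi⟩ : ↥(T i)) ^ Nat.card ↥(T i) = 1 := pow_card_eq_one'
    exact congrArg Subtype.val h2
  have h1 : ∀ i : ℕ, u ^ i * (s ^ i)⁻¹ ∈ MM cs h (XL X) χ t := by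
    intro i
    induction i with
    | zero => rw [pow_zero, pow_zero, inv_one, one_mul]; exact one_mem _
    | succ i ih =>
      have h2 : u ^ (i + 1) * (s ^ (i + 1))⁻¹ = (u ^ i * (s ^ i)⁻¹) * (s ^ i * a * (s ^ i)⁻¹) := by
        rw [pow_succ, pow_succ, ← has]; group
      rw [h2]
      exact mul_mem ih ((Subgroup.mem_normalizer_iff.1 (hn _ (pow_mem hs i)) a).1 ha)
  have h2 := h1 e
  rw [hse, inv_one, mul_one] at h2
  obtain ⟨i, hi⟩ := exists_zpow_eq hr' hj he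
  rw [hi]
  exact pow_mem h2 i

end Tower

section Inst

open CoxeterSystem Cfsg Cfsg.Lie Cfsg.Agent.ChevalleyStructure Cfsg.Agent.ChevalleyStructure.Elts
open Cfsg.Agent.ChevalleyStructure.CoxeterGeom Cfsg.Agent.ChevalleyStructure.CoxeterGeomTypes
  Cfsg.Agent.ChevalleyStructure.NPerm
open Cfsg.Agent.ChevalleyStructure.GraphSymm (symmD4a)
open Cfsg.Agent.Tits.Roots Cfsg.Agent.Tits.Core Cfsg.Agent.Nodes Cfsg.Agent.Nodes.Reps Cfsg.Agent.Nodes.BNOf
  Cfsg.Agent.Nodes.Bruhat Cfsg.Agent.Nodes.RGDChev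
open Cfsg.Agent.KFacts.RgdField Cfsg.Agent.KFacts.RgdChevCoord
open Cfsg.Agent.BpExc Cfsg.Agent.BpExc.TorCent Cfsg.Agent.BpExc.TorChev Cfsg.Agent.BpExc.Tow
  Cfsg.Agent.BpExc.TowChev Cfsg.Agent.BpExc.Fr Cfsg.Agent.BpExc.Pair Cfsg.Agent.BpExc.LangFr
open Cfsg.Agent.BpExc.FamTw.Gr Cfsg.Agent.GpExc.Field
open Cfsg.Agent.H469.Exc Cfsg.Agent.H350.Tri

universe u v

/-- the general form of TRI-8 -/
theorem mem_MM_chev {D : ChevalleyDatum} {l : ℕ} {M : CoxeterMatrix (Fin l)} (hp : IsType D l M) {k : Type u} [Field k]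
    {W : Type v} [Group W] (cs : CoxeterSystem M W) [IsAlgClosed k] (hk : LocFin k) {r : ℕ} [hr : Fact r.Prime]
    [CharP k r] {t u : ↥(D.group k)} (ht : t ∈ TT D k) {p : ℕ} (hpp : p.Prime) (hpr : p ≠ r) (htp : t ^ p = 1)
    (hu : u * t = t * u) (hur : ∃ j, u ^ r ^ j = 1) : u ∈ MM cs hp.isCartan (XX D l k) (ch hp) t := by
  have := finite_W hp cs
  have H := tow (k := k) hp cs hk r
  have C := coordsL (k := k) hp cs hk r
  have hA := chAddL (k := k) hp cs hk r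
  have hG := GG_eq_top (k := k) hp cs hk
  have hTL := TL_eq (k := k) hp hk
  have hXL := XL_eq (k := k) hp hk
  have C' : Coords cs hp.isCartan (TL (Tj hp (k := k))) (nc hp k) (XL (Xj hp (k := k))) (xc hp) (ch hp) := by
    rw [hTL, hXL]; exact C
  have hA' : ChAdd cs hp.isCartan (TL (Tj hp (k := k))) (ch (K := k) hp) := by rw [hTL]; exact hA
  have ht' : t ∈ TL (Tj hp (k := k)) := by rw [hTL]; exact ht
  have h := mem_MM H C' hA' hG (fun s hs s' hs' => by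
    rw [hTL] at hs hs'
    exact TT_comm hp s hs s' hs') ht' hpp hpr (fun a ha => by
      rw [← ch_pow hp cs hk (r := r) ha ht, htp]
      have h1 := ch_pow hp cs hk (r := r) ha (one_mem (TT D k)) 0
      rwa [pow_zero, pow_zero] at h1) hu hur
  rw [hXL] at h
  exact h

variable {r : ℕ} [hrf : Fact r.Prime]

/-- TRI-8 -/
theorem mem_MMt {t u : Y4 r} (ht : t ∈ TT chevD4 (KK r)) {p : ℕ} (hp : p.Prime) (hpr : p ≠ r) (htp : t ^ p = 1)
    (hu : u * t = t * u) (hur : ∃ j, u ^ r ^ j = 1) : u ∈ MMt t :=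
  mem_MM_chev Cfsg.Agent.Nodes.RGDTwD4.hp coxeterD4.toCoxeterSystem (locFin r) ht hp hpr htp hu hur

end Inst

end Cfsg.Agent.H71.Tri
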